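import Mathlib
import Cfsg.Agent.Lib.Perm2.FixNorm

/-!
Quadruply transitive groups with four-point stabilisers of odd order: four-groups.
-/

set_option autoImplicit false

namespace CfsgLib.Perm2

open MulAction CfsgLib.Perm Equiv Equiv.Perm

variable {α : Type*}

theorem apply_apply_of_mul_self {a : Perm α} (ha : a * a = 1) (x : α) : a (a x) = x := by
  rw [← Perm.mul_apply, ha]; rfl

theorem ncard_four {a b c d : α} (hab : a ≠ b) (hac : a ≠ c) (had : a ≠ d) (hbc : b ≠ c)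
    (hbd : b ≠ d) (hcd : c ≠ d) : ({a, b, c, d} : Set α).ncard = 4 := by
  rw [Set.ncard_insert_of_notMem (by simp [hab, hac, had]),
    Set.ncard_insert_of_notMem (by simp [hbc, hbd]), Set.ncard_pair hcd]

theorem klein_distinct {a b : Perm α} (ha : a * a = 1) (hab : a * b = b * a) {p : α}
    (h1 : a p ≠ p) (h2 : b p ≠ p) (h3 : a (b p) ≠ p) :
    p ≠ a p ∧ p ≠ b p ∧ p ≠ a (b p) ∧ a p ≠ b p ∧ a p ≠ a (b p) ∧ b p ≠ a (b p) := by
  refine ⟨h1.symm, h2.symm, h3.symm, fun e => h3 ?_, fun e => h2 (a.injective e).symm,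
    fun e => h1 ?_⟩
  · rw [← e, apply_apply_of_mul_self ha]
  · rw [← Perm.mul_apply, hab, Perm.mul_apply] at e
    exact (b.injective e).symm

theorem conj_mul_self {G : Type*} [Group G] {a : G} (ha : a * a = 1) (g : G) :
    g * a * g⁻¹ * (g * a * g⁻¹) = 1 := by
  calc g * a * g⁻¹ * (g * a * g⁻¹) = g * (a * a) * g⁻¹ := by group
    _ = 1 := by rw [ha, mul_one, mul_inv_cancel]

theorem conj_comm {G : Type*} [Group G] {a b : G} (hab : a * b = b * a) (g : G) :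
    g * a * g⁻¹ * (g * b * g⁻¹) = g * b * g⁻¹ * (g * a * g⁻¹) := by
  calc g * a * g⁻¹ * (g * b * g⁻¹) = g * (a * b) * g⁻¹ := by group
    _ = g * b * g⁻¹ * (g * a * g⁻¹) := by rw [hab]; group

theorem ncard_fix_conj (g a b : Perm α) :
    {x | (g * a * g⁻¹) x = x ∧ (g * b * g⁻¹) x = x}.ncard = {x | a x = x ∧ b x = x}.ncard := by
  rw [← Set.ncard_image_of_injective {x | a x = x ∧ b x = x} g.injective]
  congr 1
  ext x
  obtain ⟨x, rfl⟩ := g.surjective x
  rw [g.injective.mem_set_image]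
  simp

theorem ncard_fix_conj' (g a : Perm α) :
    {x | (g * a * g⁻¹) x = x}.ncard = {x | a x = x}.ncard := by
  simpa using ncard_fix_conj g a a

theorem exists_klein_perm {β : Type*} [Fintype β] [DecidableEq β] (h : 4 ≤ Fintype.card β) :
    ∃ σ τ : Perm β, sign σ = 1 ∧ sign τ = 1 ∧ σ * σ = 1 ∧ τ * τ = 1 ∧ σ * τ = τ * σ ∧
      ∃ t, σ t ≠ t ∧ τ t ≠ t ∧ σ (τ t) ≠ t ∧
        Fintype.card β ≤ {x | σ x = x ∧ τ x = x}.ncard + 4 := by
  obtain ⟨a, b, c, d, -, -, -, -, hab, hac, had, hbc, hbd, hcd⟩ :=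
    (Finset.three_lt_card_iff (s := (Finset.univ : Finset β))).1 h
  refine ⟨swap a b * swap c d, swap a c * swap b d, by simp [hab, hcd], by simp [hac, hbd],
    ?_, ?_, ?_, a, ?_, ?_, ?_, ?_⟩
  · ext x; simp only [Perm.mul_apply, swap_apply_def, Perm.one_apply]; grind
  · ext x; simp only [Perm.mul_apply, swap_apply_def, Perm.one_apply]; grind
  · ext x; simp only [Perm.mul_apply, swap_apply_def]; grind
  · simp only [Perm.mul_apply, swap_apply_def]; grind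
  · simp only [Perm.mul_apply, swap_apply_def]; grind
  · simp only [Perm.mul_apply, swap_apply_def]; grind
  · have h1 := Set.ncard_add_ncard_compl ({a, b, c, d} : Set β)
    rw [ncard_four hab hac had hbc hbd hcd, Nat.card_eq_fintype_card] at h1
    have h2 : ({a, b, c, d} : Set β)ᶜ ⊆
        {x | (swap a b * swap c d) x = x ∧ (swap a c * swap b d) x = x} := by
      intro x hx
      simp only [Set.mem_compl_iff, Set.mem_insert_iff, Set.mem_singleton_iff, not_or] at hx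
      simp only [Set.mem_ofPred_eq, Perm.mul_apply, swap_apply_def]; grind
    have := Set.ncard_le_ncard h2
    omega

variable [Finite α] {G : Subgroup (Perm α)}

theorem OddStab.exists_conj_pair (hO : OddStab G 4) (hG : IsMultiplyPretransitive G α 4)
    {a b a' b' : Perm α} (haG : a ∈ G) (hbG : b ∈ G) (haG' : a' ∈ G) (hbG' : b' ∈ G)
    (ha : a * a = 1) (hb : b * b = 1) (ha' : a' * a' = 1) (hb' : b' * b' = 1)
    (hab : a * b = b * a) (hab' : a' * b' = b' * a') {p q : α}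
    (h1 : a p ≠ p) (h2 : b p ≠ p) (h3 : a (b p) ≠ p)
    (h1' : a' q ≠ q) (h2' : b' q ≠ q) (h3' : a' (b' q) ≠ q) :
    ∃ g ∈ G, g p = q ∧ g * a * g⁻¹ = a' ∧ g * b * g⁻¹ = b' := by
  obtain ⟨d1, d2, d3, d4, d5, d6⟩ := klein_distinct ha hab h1 h2 h3
  obtain ⟨e1, e2, e3, e4, e5, e6⟩ := klein_distinct ha' hab' h1' h2' h3'
  obtain ⟨⟨g, hg⟩, g1, g2, g3, g4⟩ := exists_smul_four hG d1 d2 d3 d4 d5 d6 e1 e2 e3 e4 e5 e6
  change g p = q at g1
  change g (a p) = a' q at g2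
  change g (b p) = b' q at g3
  change g (a (b p)) = a' (b' q) at g4
  have i1 : g⁻¹ q = p := by rw [← g1]; simp
  have i2 : g⁻¹ (a' q) = a p := by rw [← g2]; simp
  have i3 : g⁻¹ (b' q) = b p := by rw [← g3]; simp
  have i4 : g⁻¹ (a' (b' q)) = a (b p) := by rw [← g4]; simp
  have aa := apply_apply_of_mul_self ha
  have bb := apply_apply_of_mul_self hb
  have aa' := apply_apply_of_mul_self ha'
  have bb' := apply_apply_of_mul_self hb'
  have ab : ∀ x, b (a x) = a (b x) := fun x => by rw [← Perm.mul_apply, ← hab]; rfl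
  have ab' : ∀ x, b' (a' x) = a' (b' x) := fun x => by rw [← Perm.mul_apply, ← hab']; rfl
  have hT := (ncard_four e1 e2 e3 e4 e5 e6).ge
  set T : Set α := {q, a' q, b' q, a' (b' q)} with hTdef
  have hTb : ∀ x ∈ T, b' x ∈ T := by
    rintro x (rfl | rfl | rfl | rfl) <;> simp [T, ab', bb']
  have hA : ∀ x ∈ T, (g * a * g⁻¹) (a' x) = x := by
    rintro x (rfl | rfl | rfl | rfl) <;>
      simp only [Perm.mul_apply, aa', i1, i2, i3, i4, aa, g1, g2, g3, g4]
  have hB : ∀ x ∈ T, (g * b * g⁻¹) (b' x) = x := by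
    rintro x (rfl | rfl | rfl | rfl) <;>
      simp only [Perm.mul_apply, ab', bb', i1, i2, i3, i4, ab, bb, g1, g2, g3, g4]
  have hc : ∀ u ∈ G, ∀ c ∈ G, u * c * u⁻¹ ∈ G := fun u hu c hc =>
    G.mul_mem (G.mul_mem hu hc) (G.inv_mem hu)
  obtain ⟨u, hu, hua, huT, -⟩ := hO.exists_conj (hc g hg a haG) haG' (conj_mul_self ha g) ha' hT hA
  have hui : ∀ x ∈ T, u⁻¹ x = x := fun x hx => by rw [Perm.inv_eq_iff_eq, huT x hx]
  obtain ⟨v, hv, hvb, hvT, hvc⟩ := hO.exists_conj (hc u hu _ (hc g hg b hbG)) hbG'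
    (conj_mul_self (conj_mul_self hb g) u) hb' hT (fun x hx => by
      rw [Perm.mul_apply, Perm.mul_apply, hui _ (hTb x hx), hB x hx, huT x hx])
  have hva : Commute a' v := hvc a' (by rw [← hua]; exact conj_comm (conj_comm hab g) u) hab'
  refine ⟨v * u * g, G.mul_mem (G.mul_mem hv hu) hg, ?_, ?_, ?_⟩
  · rw [Perm.mul_apply, Perm.mul_apply, g1, huT q (by simp [T]), hvT q (by simp [T])]
  · calc v * u * g * a * (v * u * g)⁻¹ = v * (u * (g * a * g⁻¹) * u⁻¹) * v⁻¹ := by group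
      _ = a' := by rw [hua, ← hva.eq, mul_inv_cancel_right]
  · rw [← hvb]; group

theorem exists_two_swaps {s : Perm α} (h : {x | s x = x}.ncard + 3 ≤ Nat.card α) :
    ∃ p q, s p ≠ p ∧ s q ≠ q ∧ p ≠ q ∧ s p ≠ q := by
  have h1 := Set.ncard_add_ncard_compl {x | s x = x}
  obtain ⟨p, hp⟩ : {x | s x = x}ᶜ.Nonempty := Set.nonempty_of_ncard_ne_zero (by omega)
  obtain ⟨q, hq, hq'⟩ := Set.exists_mem_notMem_of_ncard_lt_ncard (s := {p, s p})
    (t := {x | s x = x}ᶜ) (lt_of_le_of_lt (Set.ncard_insert_le _ _) (by simp; omega))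
  simp only [Set.mem_insert_iff, Set.mem_singleton_iff, not_or] at hq'
  exact ⟨p, q, hp, hq, Ne.symm hq'.1, Ne.symm hq'.2⟩

omit [Finite α] in
theorem OddStab.ncard_fix_le (hO : OddStab G 4) {s : Perm α} (hsG : s ∈ G) (hs : s * s = 1)
    (hs1 : s ≠ 1) : {x | s x = x}.ncard ≤ 3 := by
  by_contra h
  exact hs1 (hO.eq_one hsG hs (by omega))

theorem OddStab.ncard_fix_eq (hO : OddStab G 4) (hG : IsMultiplyPretransitive G α 4)
    (hn : 6 ≤ Nat.card α) {s t : Perm α} (hsG : s ∈ G) (htG : t ∈ G) (hs : s * s = 1)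
    (ht : t * t = 1) (hs1 : s ≠ 1) (ht1 : t ≠ 1) :
    {x | s x = x}.ncard = {x | t x = x}.ncard := by
  have h1 := hO.ncard_fix_le hsG hs hs1
  have h2 := hO.ncard_fix_le htG ht ht1
  obtain ⟨p, q, d1, d2, d3, d4⟩ := exists_two_swaps (s := s) (by omega)
  obtain ⟨p', q', e1, e2, e3, e4⟩ := exists_two_swaps (s := t) (by omega)
  have ss := apply_apply_of_mul_self hs
  have tt := apply_apply_of_mul_self ht
  have d5 : p ≠ s q := fun e => d4 (by rw [e, ss])
  have e5 : p' ≠ t q' := fun e => e4 (by rw [e, tt])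
  have d6 : s p ≠ s q := fun e => d3 (s.injective e)
  have e6 : t p' ≠ t q' := fun e => e3 (t.injective e)
  obtain ⟨⟨g, hg⟩, g1, g2, g3, g4⟩ := exists_smul_four hG d1.symm d3 d5 d4 d6 d2.symm
    e1.symm e3 e5 e4 e6 e2.symm
  change g p = p' at g1
  change g (s p) = t p' at g2
  change g q = q' at g3
  change g (s q) = t q' at g4
  have i1 : g⁻¹ p' = p := by rw [← g1]; simp
  have i2 : g⁻¹ (t p') = s p := by rw [← g2]; simp
  have i3 : g⁻¹ q' = q := by rw [← g3]; simp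
  have i4 : g⁻¹ (t q') = s q := by rw [← g4]; simp
  obtain ⟨u, -, hu, -⟩ := hO.exists_conj (G.mul_mem (G.mul_mem hg hsG) (G.inv_mem hg)) htG
    (conj_mul_self hs g) ht (ncard_four e1.symm e3 e5 e4 e6 e2.symm).ge (by
      rintro x (rfl | rfl | rfl | rfl) <;>
        simp only [Perm.mul_apply, tt, i1, i2, i3, i4, ss, g1, g2, g3, g4])
  rw [← hu, ncard_fix_conj', ncard_fix_conj']

theorem OddStab.exists_klein (hO : OddStab G 4) {β : Type*} [Fintype β] [DecidableEq β]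
    (h4 : 4 ≤ Fintype.card β) (ι : β ↪ α)
    (hA : ∀ σ : Perm β, sign σ = 1 → ∃ g ∈ G, ∀ y, g (ι y) = ι (σ y)) :
    ∃ a ∈ G, ∃ b ∈ G, a * a = 1 ∧ b * b = 1 ∧ a * b = b * a ∧
      ∃ t, a t ≠ t ∧ b t ≠ t ∧ a (b t) ≠ t ∧
        Fintype.card β ≤ {x | a x = x ∧ b x = x}.ncard + 4 := by
  obtain ⟨σ, τ, s1, s2, hσ, hτ, hστ, t, t1, t2, t3, hc⟩ := exists_klein_perm h4
  obtain ⟨g₁, hg₁, e₁⟩ := hA σ s1
  obtain ⟨g₂, hg₂, e₂⟩ := hA τ s2
  have hT : 4 ≤ (Set.range ι).ncard := by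
    rwa [Set.ncard_range_of_injective ι.injective, Nat.card_eq_fintype_card]
  obtain ⟨a, haG, ha, ea⟩ := hO.exists_involution hg₁ hT (by
    rintro _ ⟨y, rfl⟩; rw [e₁, e₁, apply_apply_of_mul_self hσ])
  obtain ⟨b, hbG, hb, eb⟩ := hO.exists_involution hg₂ hT (by
    rintro _ ⟨y, rfl⟩; rw [e₂, e₂, apply_apply_of_mul_self hτ])
  have ea' : ∀ y, a (ι y) = ι (σ y) := fun y => by rw [ea _ ⟨y, rfl⟩, e₁]
  have eb' : ∀ y, b (ι y) = ι (τ y) := fun y => by rw [eb _ ⟨y, rfl⟩, e₂]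
  obtain ⟨c, hcG, hc2, hac, ec⟩ := hO.exists_commute haG hbG ha hb hT (by
    rintro _ ⟨y, rfl⟩
    rw [ea', eb', ea', eb', ← Perm.mul_apply τ σ y, ← hστ, Perm.mul_apply,
      apply_apply_of_mul_self hσ, apply_apply_of_mul_self hτ])
  have ec' : ∀ y, c (ι y) = ι (τ y) := fun y => by rw [ec _ ⟨y, rfl⟩, eb']
  refine ⟨a, haG, c, hcG, ha, hc2, hac, ι t, ?_, ?_, ?_, ?_⟩
  · rw [ea']; exact fun e => t1 (ι.injective e)
  · rw [ec']; exact fun e => t2 (ι.injective e)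
  · rw [ec', ea']; exact fun e => t3 (ι.injective e)
  · refine hc.trans (Nat.add_le_add_right ?_ 4)
    rw [← Set.ncard_image_of_injective _ ι.injective]
    apply Set.ncard_le_ncard _ (Set.toFinite _)
    rintro _ ⟨y, hy, rfl⟩
    exact ⟨by rw [ea', hy.1], by rw [ec', hy.2]⟩

theorem OddStab.exists_standard (hO : OddStab G 4) (hG : IsMultiplyPretransitive G α 4)
    (hn : 4 ≤ Nat.card α) :
    ∃ a ∈ G, ∃ b ∈ G, a * a = 1 ∧ b * b = 1 ∧ a * b = b * a ∧
      ∃ x y, a x ≠ x ∧ b x = x ∧ a y = y ∧ b y ≠ y := by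
  have := Fintype.ofFinite α
  obtain ⟨x₁, x₂, x₃, x₄, -, -, -, -, h12, h13, h14, h23, h24, h34⟩ :=
    (Finset.three_lt_card_iff (s := (Finset.univ : Finset α))).1
      (by rwa [Finset.card_univ, ← Nat.card_eq_fintype_card])
  have hT := (ncard_four h12 h13 h14 h23 h24 h34).ge
  obtain ⟨⟨g, hg⟩, g1, g2, g3, g4⟩ := exists_smul_four hG h12 h13 h14 h23 h24 h34
    h12.symm h23 h24 h13 h14 h34
  obtain ⟨⟨u, hu⟩, u1, u2, u3, u4⟩ := exists_smul_four hG h12 h13 h14 h23 h24 h34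
    h12 h14 h13 h24 h23 h34.symm
  change g x₁ = x₂ at g1
  change g x₂ = x₁ at g2
  change g x₃ = x₃ at g3
  change g x₄ = x₄ at g4
  change u x₁ = x₁ at u1
  change u x₂ = x₂ at u2
  change u x₃ = x₄ at u3
  change u x₄ = x₃ at u4
  obtain ⟨a, haG, ha, ea⟩ := hO.exists_involution hg hT (by
    rintro x (rfl | rfl | rfl | rfl) <;> simp only [g1, g2, g3, g4])
  obtain ⟨b, hbG, hb, eb⟩ := hO.exists_involution hu hT (by
    rintro x (rfl | rfl | rfl | rfl) <;> simp only [u1, u2, u3, u4])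
  have a1 : a x₁ = x₂ := by rw [ea _ (by simp), g1]
  have a2 : a x₂ = x₁ := by rw [ea _ (by simp), g2]
  have a3 : a x₃ = x₃ := by rw [ea _ (by simp), g3]
  have a4 : a x₄ = x₄ := by rw [ea _ (by simp), g4]
  have b1 : b x₁ = x₁ := by rw [eb _ (by simp), u1]
  have b2 : b x₂ = x₂ := by rw [eb _ (by simp), u2]
  have b3 : b x₃ = x₄ := by rw [eb _ (by simp), u3]
  have b4 : b x₄ = x₃ := by rw [eb _ (by simp), u4]
  obtain ⟨c, hcG, hc, hac, ec⟩ := hO.exists_commute haG hbG ha hb hT (by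
    rintro x (rfl | rfl | rfl | rfl) <;> simp only [a1, a2, a3, a4, b1, b2, b3, b4])
  exact ⟨a, haG, c, hcG, ha, hc, hac, x₁, x₃, by rw [a1]; exact h12.symm,
    by rw [ec _ (by simp), b1], a3, by rw [ec _ (by simp), b3]; exact h34.symm⟩

end CfsgLib.Perm2
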