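import Mathlib
import Cfsg.Agent.Lib.Perm2.Hall1
import Cfsg.Agent.S0711
import Cfsg.Agent.S0713

/-!
M. Hall's theorem on quadruply transitive groups with four-point stabilisers of odd order.
-/

set_option autoImplicit false

namespace CfsgLib.Perm2

open MulAction CfsgLib.Perm Equiv Equiv.Perm

variable {α : Type*}

theorem fix_comm {a c : Perm α} (h : c * a = a * c) (x : α) : a (c x) = c x ↔ a x = x := by
  rw [← Perm.mul_apply, ← h, Perm.mul_apply, c.injective.eq_iff]

theorem ncard_split [Finite α] (p q : α → Prop) :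
    {x | p x}.ncard = {x | p x ∧ q x}.ncard + {x | p x ∧ ¬ q x}.ncard :=
  (Set.ncard_inter_add_ncard_sdiff_eq_ncard {x | p x} {x | q x}).symm

theorem ncard_fix_sdiff [Finite α] {a b : Perm α} (hb : b * b = 1) (hab : b * a = a * b)
    (h3 : {x | a x = x}.ncard ≤ 3) {y : α} (h1 : a y = y) (h2 : b y ≠ y) :
    {x | a x = x ∧ b x ≠ x}.ncard = 2 := by
  have h := card_modEq_of_pow_eq_one (G := Perm α) Nat.prime_two (g := b) (by rw [pow_two, hb])
    {x | a x = x ∧ b x ≠ x} (fun x hx => ⟨(fix_comm hab x).2 hx.1, fun e => hx.2 (b.injective e)⟩)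
  have e : {x | a x = x ∧ b x ≠ x} ∩ {x | b • x = x} = ∅ :=
    Set.eq_empty_of_forall_notMem fun x hx => hx.1.2 hx.2
  rw [e, Set.ncard_empty, Nat.ModEq] at h
  have h4 : 0 < {x | a x = x ∧ b x ≠ x}.ncard := (Set.ncard_pos (Set.toFinite _)).2 ⟨y, h1, h2⟩
  have h5 : {x | a x = x ∧ b x ≠ x}.ncard ≤ {x | a x = x}.ncard :=
    Set.ncard_le_ncard fun x hx => hx.1
  omega

variable [Fintype α] [DecidableEq α] {G : Subgroup (Perm α)}

theorem exists_lift_of_alt_le {K : Type*} [Group K] {β : Type*} [Fintype β] [DecidableEq β]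
    [MulAction K β] (hK : IsMultiplyPretransitive K β 4) (h4 : 4 ≤ Fintype.card β)
    (h7 : Fintype.card β ≤ 7) (σ : Perm β) (hσ : sign σ = 1) : ∃ g : K, ∀ y, g • y = σ y := by
  obtain ⟨g, hg⟩ := alternatingGroup_le_of_four (isMultiplyPretransitive_range_iff.2 hK) h4 h7
    (mem_alternatingGroup.2 hσ)
  exact ⟨g, fun y => congrArg (fun u : Perm β => u y) hg⟩

theorem OddStab.card_eq (hO : OddStab G 4) (hG : IsMultiplyPretransitive G α 4)
    (hn : 8 ≤ Fintype.card α) : Fintype.card α = 10 ∨ Fintype.card α = 11 := by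
  classical
  have hn' : Nat.card α = Fintype.card α := Nat.card_eq_fintype_card
  obtain ⟨a, haG, b, hbG, ha, hb, hab, x, y, hax, hbx, hay, hby⟩ :=
    hO.exists_standard hG (by omega)
  have ha1 : a ≠ 1 := fun e => hax (by rw [e]; rfl)
  have hb1 : b ≠ 1 := fun e => hby (by rw [e]; rfl)
  have hc1 : a * b ≠ 1 := fun e => hax (by rw [← hbx, ← Perm.mul_apply, e, hbx]; rfl)
  have hc : a * b * (a * b) = 1 := by
    rw [mul_assoc, ← mul_assoc b, ← hab, mul_assoc, hb, mul_one, ha]
  have h3a := hO.ncard_fix_le haG ha ha1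
  have h3b := hO.ncard_fix_le hbG hb hb1
  have hA := ncard_fix_sdiff hb hab.symm h3a hay hby
  have hB := ncard_fix_sdiff ha hab h3b hbx hax
  have hfa := ncard_split (fun x => a x = x) (fun x => b x = x)
  have hfc := ncard_split (fun x => (a * b) x = x) (fun x => a x = x)
  have hZ : {x | (a * b) x = x ∧ a x = x} = {x | a x = x ∧ b x = x} := by
    ext x
    simp only [Set.mem_ofPred_eq, Perm.mul_apply]
    exact ⟨fun h => ⟨h.2, a.injective (h.1.trans h.2.symm)⟩, fun h => ⟨by rw [h.2, h.1], h.1⟩⟩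
  have hac := hO.ncard_fix_eq hG (by omega) haG (G.mul_mem haG hbG) ha hc ha1 hc1
  rw [hZ] at hfc
  set Z := {x | a x = x ∧ b x = x} with hZdef
  set A := {x | a x = x ∧ b x ≠ x} with hAdef
  set B := {x | b x = x ∧ a x ≠ x} with hBdef
  set D := {x | (a * b) x = x ∧ a x ≠ x} with hDdef
  set R := {x | a x ≠ x ∧ b x ≠ x ∧ a (b x) ≠ x} with hRdef
  have hD : D.ncard = 2 := by omega
  have hz : Z.ncard ≤ 1 := by omega
  have hRc : Rᶜ = Z ∪ A ∪ B ∪ D := by
    ext x
    simp only [R, Z, A, B, D, Set.mem_compl_iff, Set.mem_ofPred_eq, Set.mem_union, Perm.mul_apply]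
    tauto
  have hF : Rᶜ.ncard = Z.ncard + 6 := by
    rw [hRc, Set.ncard_union_eq, Set.ncard_union_eq, Set.ncard_union_eq, hA, hB, hD]
    · exact Set.disjoint_left.2 fun x h1 h2 => h2.2 h1.2
    · rw [Set.disjoint_left]
      rintro x (h1 | h1) h2 <;> exact h2.2 h1.1
    · rw [Set.disjoint_left]
      rintro x ((h1 | h1) | h1) h2
      · exact h2.2 h1.1
      · exact h2.2 h1.1
      · exact h2.2 (by have := h2.1; rwa [Perm.mul_apply, h1.1] at this)
  have hRF := Set.ncard_add_ncard_compl R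
  obtain ⟨r, hr⟩ : R.Nonempty := Set.nonempty_of_ncard_ne_zero (by omega)
  let C : Subgroup G := Subgroup.centralizer {⟨a, haG⟩, ⟨b, hbG⟩}
  have hC : ∀ c : G, c ∈ C ↔ c.1 * a = a * c.1 ∧ c.1 * b = b * c.1 := by
    intro c
    simp only [C, Subgroup.mem_centralizer_iff, Set.mem_insert_iff, Set.mem_singleton_iff,
      forall_eq_or_imp, forall_eq]
    simp only [Subtype.ext_iff, Subgroup.coe_mul]
    exact and_congr eq_comm eq_comm
  have hCa : ∀ c ∈ C, ∀ x, a (c • x) = c • x ↔ a x = x := fun c hc => fix_comm ((hC c).1 hc).1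
  have hCb : ∀ c ∈ C, ∀ x, b (c • x) = c • x ↔ b x = x := fun c hc => fix_comm ((hC c).1 hc).2
  have hCc : ∀ c ∈ C, ∀ x, (a * b) (c • x) = c • x ↔ (a * b) x = x := fun c hc =>
    fix_comm (by rw [← mul_assoc, ((hC c).1 hc).1, mul_assoc, ((hC c).1 hc).2, mul_assoc])
  have horb : ∀ r ∈ R, orbit C r = R := by
    intro r hr
    ext q
    constructor
    · rintro ⟨c, rfl⟩
      exact ⟨fun e => hr.1 ((hCa c.1 c.2 r).1 e), fun e => hr.2.1 ((hCb c.1 c.2 r).1 e),
        fun e => hr.2.2 ((hCc c.1 c.2 r).1 e)⟩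
    · intro hq
      obtain ⟨g, hg, e1, e2, e3⟩ := hO.exists_conj_pair hG haG hbG haG hbG ha hb ha hb hab hab
        hr.1 hr.2.1 hr.2.2 hq.1 hq.2.1 hq.2.2
      exact ⟨⟨⟨g, hg⟩, (hC _).2 ⟨mul_inv_eq_iff_eq_mul.1 e2, mul_inv_eq_iff_eq_mul.1 e3⟩⟩, e1⟩
  have hidx : ∀ r ∈ R, (stabilizer C r).index = R.ncard := fun r hr => by
    rw [index_stabilizer, horb r hr]
  have h8 : ¬ 8 ∣ Nat.card C := by
    intro h8
    have h1 : (stabilizer C (x, y)).index ≤ 4 := by
      rw [index_stabilizer, show 4 = B.ncard * A.ncard by rw [hA, hB], ← Set.ncard_prod]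
      apply Set.ncard_le_ncard _ (Set.toFinite _)
      rintro _ ⟨c, rfl⟩
      exact ⟨⟨(hCb c.1 c.2 x).2 hbx, fun e => hax ((hCa c.1 c.2 x).1 e)⟩,
        (hCa c.1 c.2 y).2 hay, fun e => hby ((hCb c.1 c.2 y).1 e)⟩
    have h2 : ¬ 2 ∣ Nat.card (stabilizer C (x, y)) := by
      intro h2
      have := Fact.mk Nat.prime_two
      obtain ⟨t, ht⟩ := exists_prime_orderOf_dvd_card' 2 h2
      have e1 : t.1.1.1 x = x := congrArg Prod.fst t.2
      have e2 : t.1.1.1 y = y := congrArg Prod.snd t.2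
      have e3 : t.1.1.1 (a x) = a x := by
        rw [← Perm.mul_apply, ((hC _).1 t.1.2).1, Perm.mul_apply, e1]
      have e4 : t.1.1.1 (b y) = b y := by
        rw [← Perm.mul_apply, ((hC _).1 t.1.2).2, Perm.mul_apply, e2]
      have d1 : x ≠ y := fun e => hax (by rw [e, hay])
      have d2 : x ≠ b y := fun e => hby (by rw [← e, ← hbx, e, apply_apply_of_mul_self hb])
      have d3 : a x ≠ y := fun e => hax (by rw [e, ← hay, ← e, apply_apply_of_mul_self ha])
      have d4 : a x ≠ b y := fun e => d2 (a.injective (by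
        rw [e, ← Perm.mul_apply, hab, Perm.mul_apply, hay]))
      have hodd := hO.odd_of_fix t.1.1.2 (ncard_four hax.symm d1 d2 d3 d4 hby.symm).ge (by
        rintro z (rfl | rfl | rfl | rfl) <;> assumption)
      rw [Subgroup.orderOf_coe, Subgroup.orderOf_coe, Subgroup.orderOf_coe, ht] at hodd
      exact absurd hodd (by decide)
    rw [← (stabilizer C (x, y)).index_mul_card] at h8
    have h3 : Nat.Coprime (2 ^ 3) (Nat.card (stabilizer C (x, y))) :=
      Nat.Coprime.pow_left 3 ((Nat.Prime.coprime_iff_not_dvd Nat.prime_two).2 h2)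
    have h4 := Nat.le_of_dvd (Nat.pos_of_ne_zero Subgroup.FiniteIndex.index_ne_zero)
      (h3.dvd_of_dvd_mul_right h8)
    omega
  have hR4 : 4 ≤ R.ncard := by
    obtain ⟨d1, d2, d3, d4, d5, d6⟩ := klein_distinct ha hab hr.1 hr.2.1 hr.2.2
    rw [← ncard_four d1 d2 d3 d4 d5 d6, ← horb r hr]
    apply Set.ncard_le_ncard _ (Set.toFinite _)
    have m1 : (⟨a, haG⟩ : G) ∈ C := (hC _).2 ⟨rfl, hab⟩
    have m2 : (⟨b, hbG⟩ : G) ∈ C := (hC _).2 ⟨hab.symm, rfl⟩
    rintro z (rfl | rfl | rfl | rfl)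
    · exact mem_orbit_self _
    · exact ⟨⟨_, m1⟩, rfl⟩
    · exact ⟨⟨_, m2⟩, rfl⟩
    · exact ⟨⟨_, C.mul_mem m1 m2⟩, rfl⟩
  rcases Nat.eq_two_pow_or_exists_odd_prime_and_dvd R.ncard with ⟨i, hi⟩ | ⟨p, hp, hpR, hpo⟩
  · have h1 : R.ncard ∣ Nat.card C := hidx r hr ▸ Subgroup.index_dvd_card _
    have h2 : i ≤ 2 := by
      by_contra h
      exact h8 ((pow_dvd_pow 2 (show 3 ≤ i by omega)).trans (hi ▸ h1))
    have h3 : R.ncard ≤ 4 := hi ▸ Nat.pow_le_pow_right (by norm_num) h2
    omega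
  exfalso
  have := Fact.mk hp
  have hp3 : 2 < p := lt_of_le_of_ne hp.two_le (by rintro rfl; exact absurd hpo (by decide))
  obtain ⟨S⟩ : Nonempty (Sylow p C) := inferInstance
  let P : Subgroup G := (S : Subgroup C).map C.subtype
  have hP : IsPGroup p P := S.isPGroup'.map _
  have hPC : P ≤ C := Subgroup.map_subtype_le _
  have hfixP : fixedPoints P α = Rᶜ := by
    apply Set.Subset.antisymm
    · intro q hq hqR
      have hle : (S : Subgroup C) ≤ stabilizer C q := fun c hc => hq ⟨c.1, c, hc, rfl⟩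
      exact S.not_dvd_index (hpR.trans (hidx q hqR ▸ Subgroup.index_dvd_of_le hle))
    · rw [hRc]
      refine Set.union_subset (Set.union_subset (Set.union_subset ?_ ?_) ?_) ?_
      · exact subset_fixedPoints_of_lt hP Z (fun c hc x hx =>
          ⟨(hCa c (hPC hc) x).2 hx.1, (hCb c (hPC hc) x).2 hx.2⟩) (by omega)
      · exact subset_fixedPoints_of_lt hP A (fun c hc x hx =>
          ⟨(hCa c (hPC hc) x).2 hx.1, fun e => hx.2 ((hCb c (hPC hc) x).1 e)⟩) (by omega)
      · exact subset_fixedPoints_of_lt hP B (fun c hc x hx =>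
          ⟨(hCb c (hPC hc) x).2 hx.1, fun e => hx.2 ((hCa c (hPC hc) x).1 e)⟩) (by omega)
      · exact subset_fixedPoints_of_lt hP D (fun c hc x hx =>
          ⟨(hCc c (hPC hc) x).2 hx.1, fun e => hx.2 ((hCa c (hPC hc) x).1 e)⟩) (by omega)
  obtain ⟨Q, hPQ, hQ, hQ5, -, hN⟩ := exists_normalizer_transitive (k := 3) hp hG hP
    (by rw [hfixP]; omega)
  have hQF : (fixedPoints Q α).ncard = Z.ncard + 6 := by
    have h1 := card_modEq_of_isPGroup hP (Set.univ : Set α) (fun _ _ _ _ => trivial)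
    have h2 := card_modEq_of_isPGroup hQ (Set.univ : Set α) (fun _ _ _ _ => trivial)
    rw [Set.univ_inter] at h1 h2
    have h3 : (fixedPoints Q α).ncard ≤ (fixedPoints P α).ncard :=
      Set.ncard_le_ncard fun x hx g => hx ⟨g.1, hPQ g.2⟩
    have h4 := (Nat.modEq_iff_dvd' h3).1 (h2.symm.trans h1)
    rw [hfixP, hF] at h3 h4
    have := Nat.eq_zero_of_dvd_of_lt h4 (by omega)
    omega
  have := Fintype.ofFinite (fixSub α Q)
  have hcard : Fintype.card (fixSub α Q) = Z.ncard + 6 := by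
    rw [← hQF, ← Nat.card_eq_fintype_card]; rfl
  obtain ⟨a', haG', b', hbG', ha', hb', hab', t, t1, t2, t3, hle⟩ :=
    hO.exists_klein (β := fixSub α Q) (by omega) (Function.Embedding.subtype _) (fun σ hσ => by
      obtain ⟨g, hg⟩ := exists_lift_of_alt_le hN (by omega) (by omega) σ hσ
      exact ⟨g.1.1, g.1.2, fun y => congrArg Subtype.val (hg y)⟩)
  obtain ⟨g, -, -, e1, e2⟩ := hO.exists_conj_pair hG haG hbG haG' hbG' ha hb ha' hb' hab hab'
    hr.1 hr.2.1 hr.2.2 t1 t2 t3
  rw [← e1, ← e2, ncard_fix_conj, hcard] at hle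
  change _ ≤ Z.ncard + 4 at hle
  omega

theorem OddStab.not_alternatingGroup_le (hO : OddStab G 4) (hn : 8 ≤ Fintype.card α) :
    ¬ alternatingGroup α ≤ G := by
  intro h
  obtain ⟨σ, τ, s1, -, hσ, -, -, t, t1, -, -, hc⟩ := exists_klein_perm (β := α) (by omega)
  have h1 : {x | σ x = x ∧ τ x = x}.ncard ≤ {x | σ x = x}.ncard :=
    Set.ncard_le_ncard fun x hx => hx.1
  rw [hO.eq_one (h (mem_alternatingGroup.2 s1)) hσ (by omega)] at t1
  exact t1 rfl

omit [DecidableEq α] in
theorem index_fixing_eq {K : Type*} [Group K] [MulAction K α] {k : ℕ}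
    (hG : IsMultiplyPretransitive K α k) {s : Set α} (hs : s.ncard = k) :
    (fixingSubgroup K s).index = (Fintype.card α).descFactorial k := by
  subst hs
  rw [hG.index_of_fixingSubgroup_eq, Nat.descFactorial_eq_factorial_mul_choose, mul_comm,
    Nat.card_eq_fintype_card]

theorem OddStab.not_seven_cycle (hO : OddStab G 4) (hG : IsMultiplyPretransitive G α 4)
    (h10 : 10 ≤ Fintype.card α) (h13 : Fintype.card α ≤ 13) {g : Perm α} (hg : g ∈ G) :
    orderOf g ≠ 7 := by
  intro h7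
  have hc : g.IsCycle := isCycle_of_prime_order' (by rw [h7]; norm_num) (by omega)
  have hp : IsPreprimitive G α := isPreprimitive_of_is_two_pretransitive
    (isMultiplyPretransitive_of_le (n := 4) (by norm_num) (by rw [Nat.card_eq_fintype_card]; omega))
  exact hO.not_alternatingGroup_le (by omega) (Cfsg.Agent.S0713.result G hp (p := 7) (by norm_num)
    (by omega) (by omega) hc (by rw [← hc.orderOf, h7]) hg)

theorem OddStab.card_ne_ten (hO : OddStab G 4) (hG : IsMultiplyPretransitive G α 4) :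
    Fintype.card α ≠ 10 := by
  intro h
  obtain ⟨s, -, hs⟩ := Set.exists_subset_card_eq (s := (Set.univ : Set α)) (n := 4)
    (by rw [Set.ncard_univ, Nat.card_eq_fintype_card]; omega)
  have h1 := (fixingSubgroup G s).index_dvd_card
  rw [index_fixing_eq hG hs, h] at h1
  have := Fact.mk (show Nat.Prime 7 by norm_num)
  obtain ⟨g, hg⟩ := exists_prime_orderOf_dvd_card' (G := G) 7 (Dvd.dvd.trans (by decide) h1)
  exact hO.not_seven_cycle hG (by omega) (by omega) g.2 (by rw [Subgroup.orderOf_coe, hg])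

theorem OddStab.eq_one_of_eleven (hO : OddStab G 4) (hG : IsMultiplyPretransitive G α 4)
    (hn : Fintype.card α = 11) {g : Perm α} (hg : g ∈ G) (h4 : 4 ≤ {x | g x = x}.ncard) :
    g = 1 := by
  classical
  by_contra hne
  have hsmall : ∀ h ∈ G, h ≠ 1 → {x | h x = x}.ncard ≤ 5 := by
    intro h hh h1
    by_contra hlt
    have := ncard_fix_add_card_support h
    exact hO.not_alternatingGroup_le (by omega)
      (Cfsg.Agent.S0711.result G (k := 4) (by norm_num) (by omega) hG h hh h1 (by omega)).2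
  obtain ⟨p, hp, hpd⟩ := Nat.exists_prime_and_dvd (fun e => hne (orderOf_eq_one_iff.1 e))
  have hpo : Odd p := (hO g hg h4).of_dvd_nat hpd
  set h := g ^ (orderOf g / p) with hh
  have hho : orderOf h = p := orderOf_pow_orderOf_div (orderOf_pos g).ne' hpd
  have hhG : h ∈ G := G.pow_mem hg _
  have hh4 : 4 ≤ {x | h x = x}.ncard :=
    h4.trans (Set.ncard_le_ncard fun x hx => pow_apply_of_fix hx _)
  have hh5 := hsmall h hhG (fun e => hp.one_lt.ne (by rw [← hho, e, orderOf_one]))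
  have hhp : h ^ p = 1 := by rw [← hho, pow_orderOf_eq_one]
  have hm := card_modEq_of_pow_eq_one (G := Perm α) hp hhp (Set.univ : Set α) (fun _ _ => trivial)
  rw [Set.univ_inter, Set.ncard_univ, Nat.card_eq_fintype_card, hn] at hm
  change 11 ≡ {x | h x = x}.ncard [MOD p] at hm
  have hd := (Nat.modEq_iff_dvd' (by omega)).1 hm.symm
  have h5 : {x | h x = x}.ncard = 5 := by
    by_contra h5
    rw [show {x | h x = x}.ncard = 4 by omega] at hd
    exact hO.not_seven_cycle hG (by omega) (by omega) hhG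
      (hho.trans ((Nat.prime_dvd_prime_iff_eq hp (by norm_num)).1 hd))
  have hp3 : p = 3 := by
    rw [h5] at hd
    have := Nat.le_of_dvd (by norm_num) hd
    interval_cases p <;> simp_all (config := {decide := true})
  subst hp3
  have := Fact.mk hp
  have hP : IsPGroup 3 (Subgroup.zpowers (⟨h, hhG⟩ : G)) := isPGroup_zpowers (Subtype.ext hhp)
  have hfP : (fixedPoints (Subgroup.zpowers (⟨h, hhG⟩ : G)) α).ncard = 5 := by
    rw [fixedPoints_zpowers]; exact h5
  obtain ⟨Q, hPQ, hQ, hQ5, -, hN⟩ := exists_normalizer_transitive (k := 3) hp hG hP (by omega)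
  have hfQ : (fixedPoints Q α).ncard = 5 := by
    have : (fixedPoints Q α).ncard ≤ (fixedPoints (Subgroup.zpowers (⟨h, hhG⟩ : G)) α).ncard :=
      Set.ncard_le_ncard fun x hx g => hx ⟨g.1, hPQ g.2⟩
    omega
  have hcard : Nat.card (fixSub α Q) = 5 := hfQ
  have htr : IsPretransitive (Subgroup.normalizer (Q : Set G)) (fixSub α Q) :=
    is_one_pretransitive_iff.1 (isMultiplyPretransitive_of_le (n := 3 + 1) (by norm_num) (by omega))
  have hne' : Nonempty (fixSub α Q) := (Nat.card_pos_iff.1 (by omega)).1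
  obtain ⟨y⟩ := hne'
  have h5d : 5 ∣ Nat.card (Subgroup.normalizer (Q : Set G)) := by
    rw [← hcard, ← index_stabilizer_of_transitive (Subgroup.normalizer (Q : Set G)) y]
    exact Subgroup.index_dvd_card _
  have h5p : Nat.Prime 5 := by norm_num
  have := Fact.mk h5p
  obtain ⟨u, hu⟩ := exists_prime_orderOf_dvd_card' 5 h5d
  have hu5 : u.1 ^ 5 = 1 := by rw [← hu, ← Subgroup.coe_pow, pow_orderOf_eq_one]; rfl
  have hu1 : u.1.1 ≠ 1 := fun e => by
    have : u = 1 := Subtype.ext (Subtype.ext e)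
    rw [this, orderOf_one] at hu
    exact absurd hu (by decide)
  have hfu := hsmall u.1.1 u.1.2 hu1
  have hmu := card_modEq_of_pow_eq_one h5p hu5 (Set.univ : Set α) (fun _ _ => trivial)
  rw [Set.univ_inter, Set.ncard_univ, Nat.card_eq_fintype_card, hn, Nat.ModEq] at hmu
  have hfu1 : {x : α | u.1 • x = x}.ncard = 1 := by
    change {x : α | u.1 • x = x}.ncard ≤ 5 at hfu
    omega
  obtain ⟨γ, hγ⟩ := Set.ncard_eq_one.1 hfu1
  have hγu : u.1 • γ = γ := by
    have : γ ∈ {x : α | u.1 • x = x} := hγ ▸ rfl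
    exact this
  have key : ∀ S : Set α, γ ∈ S → (∀ x ∈ S, u.1 • x ∈ S) → S.ncard % 5 = 1 := by
    intro S h1 h2
    have := card_modEq_of_pow_eq_one h5p hu5 S h2
    rwa [hγ, Set.inter_eq_right.2 (Set.singleton_subset_iff.2 h1), Set.ncard_singleton] at this
  by_cases hγQ : γ ∈ fixedPoints Q α
  · have := key _ hγQ fun x hx => smul_mem_fixedPoints_of_mem_normalizer u.2 hx
    omega
  · have h1 := key (orbit Q γ) (mem_orbit_self γ) (by
      rintro _ ⟨q, rfl⟩
      refine ⟨⟨u.1 * q.1 * u.1⁻¹, (Subgroup.mem_normalizer_iff.1 u.2 q.1).1 q.2⟩, ?_⟩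
      change (u.1 * q.1 * u.1⁻¹) • γ = u.1 • q.1 • γ
      rw [mul_smul, mul_smul, inv_smul_eq_iff.2 hγu.symm])
    obtain ⟨i, hi⟩ := hQ.card_orbit γ
    have h2 : (orbit Q γ).ncard = 3 ^ i := hi
    have h3 : (orbit Q γ).ncard ≤ (fixedPoints Q α)ᶜ.ncard := by
      apply Set.ncard_le_ncard _ (Set.toFinite _)
      rintro _ ⟨q, rfl⟩ hq
      apply hγQ
      have := hq q⁻¹
      simp only [inv_smul_smul] at this
      rw [this]; exact hq
    have h4 := Set.ncard_add_ncard_compl (fixedPoints Q α)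
    rw [Nat.card_eq_fintype_card] at h4
    have h6 : (orbit Q γ).ncard ≠ 1 := fun e => hγQ (by
      obtain ⟨w, hw⟩ := Set.ncard_eq_one.1 e
      intro q
      have e1 : q • γ ∈ orbit Q γ := mem_orbit γ q
      have e2 : γ ∈ orbit Q γ := mem_orbit_self γ
      rw [hw] at e1 e2
      exact e1.trans e2.symm)
    have h7 : (orbit Q γ).ncard = 6 := by omega
    rw [h7] at h2
    have : (2 : ℕ) ∣ 3 ^ i := h2 ▸ (by norm_num)
    exact absurd (Nat.prime_two.dvd_of_dvd_pow this) (by norm_num)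

theorem eq_top_or_eq_alternatingGroup (hA : alternatingGroup α ≤ G) :
    G = ⊤ ∨ G = alternatingGroup α := by
  by_cases h : G ≤ alternatingGroup α
  · exact Or.inr (le_antisymm h hA)
  · left
    obtain ⟨g, hg, hg'⟩ := SetLike.not_le_iff_exists.1 h
    have h1 := (Int.units_eq_one_or (sign g)).resolve_left fun e => hg' (mem_alternatingGroup.2 e)
    rw [eq_top_iff]
    intro σ _
    rcases Int.units_eq_one_or (sign σ) with e | e
    · exact hA (mem_alternatingGroup.2 e)
    · have : σ * g⁻¹ ∈ G := hA (by rw [mem_alternatingGroup, map_mul, map_inv, e, h1]; decide)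
      simpa using G.mul_mem this hg

theorem OddStab.eq_alternatingGroup (hO : OddStab G 4) (hn : 6 ≤ Fintype.card α)
    (hA : alternatingGroup α ≤ G) : G = alternatingGroup α := by
  have : Nontrivial α := Fintype.one_lt_card_iff_nontrivial.1 (by omega)
  refine (eq_top_or_eq_alternatingGroup hA).resolve_left ?_
  rintro rfl
  obtain ⟨a, b, hab⟩ := exists_pair_ne α
  have h1 := ncard_fix_add_card_support (swap a b)
  rw [card_support_swap hab] at h1
  have := hO.eq_one (Subgroup.mem_top _) (swap_mul_self a b) (by omega)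
  exact hab (swap_eq_one_iff.1 this)

/-- M. Hall's theorem. -/
theorem OddStab.hall (hO : OddStab G 4) (hG : IsMultiplyPretransitive G α 4)
    (hn : 4 ≤ Fintype.card α) :
    ((Fintype.card α = 4 ∨ Fintype.card α = 5) ∧ G = ⊤) ∨
      ((Fintype.card α = 6 ∨ Fintype.card α = 7) ∧ G = alternatingGroup α) ∨
      (Fintype.card α = 11 ∧ Nat.card G = 7920) := by
  by_cases h5 : Fintype.card α ≤ 5
  · refine Or.inl ⟨by omega, eq_top_of_isMultiplyPretransitive ?_⟩
    exact isMultiplyPretransitive_of_le (n := 4) (by rw [Nat.card_eq_fintype_card]; omega)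
      (by rwa [Nat.card_eq_fintype_card])
  by_cases h7 : Fintype.card α ≤ 7
  · exact Or.inr (Or.inl ⟨by omega,
      hO.eq_alternatingGroup (by omega) (alternatingGroup_le_of_four hG hn h7)⟩)
  have h11 := (hO.card_eq hG (by omega)).resolve_left (hO.card_ne_ten hG)
  refine Or.inr (Or.inr ⟨h11, ?_⟩)
  obtain ⟨s, -, hs⟩ := Set.exists_subset_card_eq (s := (Set.univ : Set α)) (n := 4)
    (by rw [Set.ncard_univ, Nat.card_eq_fintype_card]; omega)
  have h1 := index_fixing_eq hG hs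
  have h2 : fixingSubgroup G s = ⊥ := by
    rw [eq_bot_iff]
    intro g hg
    exact Subtype.ext (hO.eq_one_of_eleven hG h11 g.2
      (hs ▸ Set.ncard_le_ncard ((mem_fixingSubgroup_iff G).1 hg)))
  rw [h2, Subgroup.index_bot, h11] at h1
  exact h1

end CfsgLib.Perm2
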