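import Mathlib
import Cfsg.Agent.Lib.Perm2.JordanSet

/-!
Jordan sets in quasiprimitive groups.
-/

set_option autoImplicit false

namespace CfsgLib.Perm2

open MulAction Finset CfsgLib.Perm Equiv Equiv.Perm
open scoped Pointwise

variable {G Ω : Type*} [Group G] [MulAction G Ω]

theorem exists_primitive_quotient [Finite G] [IsPretransitive G Ω] [Nontrivial Ω] :
    ∃ (M : Subgroup G) (π : Ω → G ⧸ M), (∀ (g : G) x, π (g • x) = g • π x) ∧
      Function.Surjective π ∧ IsPreprimitive G (G ⧸ M) ∧ Nontrivial (G ⧸ M) := by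
  obtain ⟨a, b, hab⟩ := exists_pair_ne Ω
  have hne : stabilizer G a ≠ ⊤ := by
    intro e
    obtain ⟨g, hg⟩ := exists_smul_eq G a b
    have : g ∈ stabilizer G a := e ▸ Subgroup.mem_top g
    exact hab (this.symm.trans hg)
  obtain ⟨M, hM, hle⟩ := (eq_top_or_exists_le_coatom (stabilizer G a)).resolve_left hne
  choose r hr using exists_smul_eq G a
  have hnt : Nontrivial (G ⧸ M) := by
    obtain ⟨g, hg⟩ : ∃ g, g ∉ M := by
      by_contra h
      push Not at h
      exact hM.1 (Subgroup.eq_top_iff' M |>.2 h)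
    exact ⟨(1 : G), (g : G), fun e => hg (by simpa using QuotientGroup.eq.1 e)⟩
  have key : ∀ g : G, ((r (g • a) : G) : G ⧸ M) = (g : G ⧸ M) := fun g => by
    rw [QuotientGroup.eq]
    apply hle
    rw [mem_stabilizer_iff, mul_smul, inv_smul_eq_iff, hr]
  refine ⟨M, fun x => (r x : G ⧸ M), fun g x => ?_, fun y => ?_, ?_, hnt⟩
  · obtain ⟨u, rfl⟩ := exists_smul_eq G a x
    simp only
    rw [← mul_smul, key, key]; rfl
  · obtain ⟨g, rfl⟩ := QuotientGroup.mk_surjective y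
    exact ⟨g • a, key g⟩
  · rw [← isCoatom_stabilizer_iff_preprimitive G ((1 : G) : G ⧸ M), stabilizer_quotient]
    exact hM

theorem isPreprimitive_of_injective {β : Type*} [MulAction G β] {π : Ω → β}
    (hπ : ∀ (g : G) x, π (g • x) = g • π x) (hs : Function.Surjective π)
    (hi : Function.Injective π) (h : IsPreprimitive G β) : IsPreprimitive G Ω := by
  let f : Ω →[G] β := ⟨π, hπ⟩
  exact (isPreprimitive_congr (f := f) Function.surjective_id ⟨hi, hs⟩).2 h

section Quasi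

variable (hqp : ∀ N : Subgroup G, N.Normal → N ≠ ⊥ → IsPretransitive N Ω)
  {β : Type*} [MulAction G β] [Nontrivial β] {π : Ω → β}
  (hπ : ∀ (g : G) x, π (g • x) = g • π x) (hs : Function.Surjective π)
include hqp

theorem IsJordan.isPretransitive_of_quasi {Γ : Finset Ω} (hΓ : IsJordan G Γ) (h2 : 2 ≤ Γ.card) :
    IsPretransitive G Ω := by
  obtain ⟨a, ha, b, hb, hab⟩ := Finset.one_lt_card.1 h2
  obtain ⟨g, -, hg⟩ := hΓ a ha b hb
  have := hqp ⊤ inferInstance (by
    intro e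
    have : g ∈ (⊥ : Subgroup G) := e ▸ Subgroup.mem_top g
    rw [Subgroup.mem_bot.1 this, one_smul] at hg
    exact hab hg)
  exact ⟨fun x y => by
    obtain ⟨u, hu⟩ := this.exists_smul_eq x y
    exact ⟨u.1, hu⟩⟩

include hπ hs

theorem eq_one_of_quasi {g : G} (hg : ∀ y : β, g • y = y) : g = 1 := by
  by_contra hne
  have := hqp (toPermHom G β).ker inferInstance (by
    intro e
    have : g ∈ (toPermHom G β).ker := Equiv.ext hg
    rw [e] at this
    exact hne this)
  obtain ⟨y, y', hy⟩ := exists_pair_ne β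
  obtain ⟨x, rfl⟩ := hs y
  obtain ⟨x', rfl⟩ := hs y'
  obtain ⟨u, hu⟩ := this.exists_smul_eq x x'
  apply hy
  have h1 : u.1 • π x = π x := congrArg (fun σ : Perm β => σ (π x)) u.2
  rw [← h1, ← hπ]
  exact congrArg π hu

theorem IsJordan.mem_of_fibre {Γ : Finset Ω} (hΓ : IsJordan G Γ) (h2 : 2 ≤ Γ.card) {x y : Ω}
    (hx : x ∈ Γ) (hxy : π y = π x) : y ∈ Γ := by
  by_contra hy
  obtain ⟨a, ha, b, hb, hab⟩ := Finset.one_lt_card.1 h2
  obtain ⟨g, hg, hgab⟩ := hΓ a ha b hb
  have : g = 1 := by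
    apply eq_one_of_quasi hqp hπ hs
    intro w
    obtain ⟨z, rfl⟩ := hs w
    by_cases hz : z ∈ Γ
    · obtain ⟨u, hu, rfl⟩ := hΓ x hx z hz
      rw [hπ, ← hxy, ← hπ, hu y hy, ← hπ, hg y hy]
    · rw [← hπ, hg z hz]
  rw [this, one_smul] at hgab
  exact hab hgab

theorem IsJordan.exists_ne_fibre {Γ : Finset Ω} (hΓ : IsJordan G Γ) (h2 : 2 ≤ Γ.card) :
    ∃ x ∈ Γ, ∃ y ∈ Γ, π x ≠ π y := by
  by_contra h
  push Not at h
  obtain ⟨a, ha, b, hb, hab⟩ := Finset.one_lt_card.1 h2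
  obtain ⟨g, hg, hgab⟩ := hΓ a ha b hb
  have : g = 1 := by
    apply eq_one_of_quasi hqp hπ hs
    intro w
    obtain ⟨z, rfl⟩ := hs w
    by_cases hz : z ∈ Γ
    · rw [h z hz a ha, ← hπ, hgab, h a ha b hb]
    · rw [← hπ, hg z hz]
  rw [this, one_smul] at hgab
  exact hab hgab

end Quasi

theorem injective_of_fibre [IsPretransitive G Ω] {β : Type*} [MulAction G β] {π : Ω → β}
    (hπ : ∀ (g : G) x, π (g • x) = g • π x) {a : Ω} (h : ∀ y, π y = π a → y = a) :
    Function.Injective π := by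
  intro x y hxy
  obtain ⟨g, rfl⟩ := exists_smul_eq G a y
  have := h (g⁻¹ • x) (by rw [hπ, hxy, hπ, inv_smul_smul])
  rw [← this, smul_inv_smul]

/-- A quasiprimitive group with a primitive Jordan set is primitive. -/
theorem IsJordan.isPreprimitive_of_quasi [Finite G]
    (hqp : ∀ N : Subgroup G, N.Normal → N ≠ ⊥ → IsPretransitive N Ω) {Γ : Finset Ω}
    (hΓ : IsJordan G Γ) (h2 : 2 ≤ Γ.card)
    (hp : IsPreprimitive (fixingSubgroup G (Γ : Set Ω)ᶜ)
      (SubMulAction.ofFixingSubgroup G (Γ : Set Ω)ᶜ)) : IsPreprimitive G Ω := by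
  have := hΓ.isPretransitive_of_quasi hqp h2
  have : Nontrivial Ω := by
    obtain ⟨a, -, b, -, hab⟩ := Finset.one_lt_card.1 h2
    exact ⟨a, b, hab⟩
  obtain ⟨M, π, hπ, hs, hprim, hnt⟩ := exists_primitive_quotient (G := G) (Ω := Ω)
  refine isPreprimitive_of_injective hπ hs ?_ hprim
  obtain ⟨a, ha, b, hb, hab⟩ := hΓ.exists_ne_fibre hqp hπ hs h2
  refine injective_of_fibre hπ (a := a) fun y hy => ?_
  have hyΓ := hΓ.mem_of_fibre hqp hπ hs h2 ha hy
  let f : SubMulAction.ofFixingSubgroup G (Γ : Set Ω)ᶜ →ₑ[(fixingSubgroup G (Γ : Set Ω)ᶜ).subtype]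
      G ⧸ M := ⟨fun z => π z.1, fun g z => hπ g.1 z.1⟩
  rcases hp.isTrivialBlock_of_isBlock (IsBlock.preimage f (IsBlock.singleton (a := π a))) with h | h
  · exact congrArg Subtype.val (h (x := ⟨y, not_not.2 hyΓ⟩) hy (y := ⟨a, not_not.2 ha⟩) rfl)
  · have : (⟨b, not_not.2 hb⟩ : SubMulAction.ofFixingSubgroup G (Γ : Set Ω)ᶜ) ∈
      f ⁻¹' {π a} := h ▸ Set.mem_univ _
    exact absurd this.symm hab

theorem IsJordan.range {Γ : Finset Ω} (hΓ : IsJordan G Γ) : IsJordan (toPermHom G Ω).range Γ := by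
  intro x hx y hy
  obtain ⟨g, hg⟩ := hΓ x hx y hy
  exact ⟨⟨_, g, rfl⟩, hg⟩

/-- A quasiprimitive group with a Jordan set containing fewer than half of the points is
primitive. -/
theorem IsJordan.isPreprimitive_of_quasi_of_lt [Finite G] [Fintype Ω]
    (hqp : ∀ N : Subgroup G, N.Normal → N ≠ ⊥ → IsPretransitive N Ω) {Γ : Finset Ω}
    (hΓ : IsJordan G Γ) (h2 : 2 ≤ Γ.card) (hn : 2 * Γ.card < Fintype.card Ω) :
    IsPreprimitive G Ω := by
  classical
  have := hΓ.isPretransitive_of_quasi hqp h2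
  have : Nontrivial Ω := by
    obtain ⟨a, -, b, -, hab⟩ := Finset.one_lt_card.1 h2
    exact ⟨a, b, hab⟩
  obtain ⟨M, π, hπ, hs, hprim, hnt⟩ := exists_primitive_quotient (G := G) (Ω := Ω)
  refine isPreprimitive_of_injective hπ hs ?_ hprim
  have := Fintype.ofFinite (G ⧸ M)
  have hfib := fun {x y} => hΓ.mem_of_fibre hqp hπ hs h2 (x := x) (y := y)
  obtain ⟨a, ha, b, hb, hab⟩ := hΓ.exists_ne_fibre hqp hπ hs h2
  have hΓ' : IsJordan G (Γ.image π) := by
    intro x' hx' y' hy'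
    obtain ⟨x, hx, rfl⟩ := Finset.mem_image.1 hx'
    obtain ⟨y, hy, rfl⟩ := Finset.mem_image.1 hy'
    obtain ⟨g, hg, hxy⟩ := hΓ x hx y hy
    refine ⟨g, fun z hz => ?_, by rw [← hπ, hxy]⟩
    obtain ⟨z, rfl⟩ := hs z
    rw [← hπ, hg z fun e => hz (Finset.mem_image_of_mem π e)]
  have h2' : 2 ≤ (Γ.image π).card :=
    Finset.one_lt_card.2 ⟨_, Finset.mem_image_of_mem π ha, _, Finset.mem_image_of_mem π hb, hab⟩
  have hn' : 2 * (Γ.image π).card < Fintype.card (G ⧸ M) := by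
    set c := (Finset.univ.filter fun x => π x = π a).card with hc
    have hfc : ∀ y, (Finset.univ.filter fun x => π x = y).card = c := by
      intro y
      obtain ⟨y, rfl⟩ := hs y
      obtain ⟨g, rfl⟩ := exists_smul_eq G a y
      symm
      apply Finset.card_bij (fun x _ => g • x)
      · intro x hx
        simp only [Finset.mem_filter, Finset.mem_univ, true_and] at hx ⊢
        rw [hπ, hπ, hx]
      · intro x _ y _ e
        exact smul_left_cancel g e
      · intro x hx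
        simp only [Finset.mem_filter, Finset.mem_univ, true_and] at hx ⊢
        exact ⟨g⁻¹ • x, by rw [hπ, hx, hπ, inv_smul_smul], smul_inv_smul _ _⟩
    have e1 := Finset.card_eq_sum_card_fiberwise (f := π) (s := Finset.univ) (t := Finset.univ)
      (fun _ _ => Finset.mem_univ _)
    have e2 := Finset.card_eq_sum_card_fiberwise (f := π) (s := Γ) (t := Γ.image π)
      (fun x hx => Finset.mem_image_of_mem π hx)
    rw [Finset.sum_const_nat (m := c) (fun y _ => hfc y), Finset.card_univ, Finset.card_univ] at e1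
    rw [Finset.sum_const_nat (m := c)] at e2
    · rw [e1, e2, ← mul_assoc] at hn
      exact lt_of_mul_lt_mul_right hn (Nat.zero_le _)
    · intro y' hy'
      obtain ⟨y, hy, rfl⟩ := Finset.mem_image.1 hy'
      rw [← hfc (π y)]
      congr 1
      ext x
      simp only [Finset.mem_filter, Finset.mem_univ, true_and]
      exact ⟨fun h => h.2, fun h => ⟨hfib hy h, h⟩⟩
  have hA := hΓ'.range.alternatingGroup_le (isPreprimitive_range hprim) h2' hn'
  obtain ⟨B, D, E, hB, hD, hE, hBD, hBE, hDE⟩ := Finset.two_lt_card_iff.1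
    (show 2 < (Γ.image π)ᶜ.card by rw [Finset.card_compl]; omega)
  rw [Finset.mem_compl] at hB hD hE
  obtain ⟨z, rfl⟩ := hs B
  let K : Subgroup (Perm (G ⧸ M)) := (fixingSubgroup G {x | π x = π z}).map (toPermHom G (G ⧸ M))
  have hK : ∀ σ : Perm (G ⧸ M), sign σ = 1 → σ (π z) = π z → ∀ c ∈ K, σ * c * σ⁻¹ ∈ K := by
    rintro σ hσ hσz _ ⟨u, hu, rfl⟩
    obtain ⟨g, rfl⟩ := hA (mem_alternatingGroup.2 hσ)
    refine ⟨g * u * g⁻¹, ?_, by rw [map_mul, map_mul, map_inv]⟩
    rw [SetLike.mem_coe, mem_fixingSubgroup_iff] at hu ⊢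
    intro y hy
    have hgz : g • π z = π z := hσz
    rw [mul_smul, mul_smul, hu (g⁻¹ • y) (by
      rw [Set.mem_ofPred_eq] at hy ⊢
      rw [hπ, hy, inv_smul_eq_iff, hgz]), smul_inv_smul]
  obtain ⟨h, hh, hhab⟩ := hΓ a ha b hb
  have hfix : ∀ y, y ∉ Γ.image π → h • y = y := by
    intro y hy
    obtain ⟨y, rfl⟩ := hs y
    rw [← hπ, hh y fun e => hy (Finset.mem_image_of_mem π e)]
  have hhK : toPermHom G (G ⧸ M) h ∈ K := by
    refine ⟨h, ?_, rfl⟩
    rw [SetLike.mem_coe, mem_fixingSubgroup_iff]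
    intro y hy
    exact hh y fun e => hB (hy ▸ Finset.mem_image_of_mem π e)
  have haΓ := Finset.mem_image_of_mem π ha
  have haD : π a ≠ D := fun e => hD (e ▸ haΓ)
  have haE : π a ≠ E := fun e => hE (e ▸ haΓ)
  have haB : π z ≠ π a := fun e => hB (e ▸ haΓ)
  let s : Perm (G ⧸ M) := swap (π a) D * swap (π a) E
  have hs1 : sign s = 1 := (isThreeCycle_swap_mul_swap_same haD haE hDE).sign
  have hsz : s (π z) = π z := by
    simp only [s, Perm.mul_apply]
    rw [swap_apply_of_ne_of_ne haB hBE, swap_apply_of_ne_of_ne haB hBD]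
  have h3 : IsThreeCycle (toPermHom G (G ⧸ M) h * s * (toPermHom G (G ⧸ M) h)⁻¹ * s⁻¹) := by
    apply isThreeCycle_commutator (a := π a)
    · change h • π a ≠ π a
      rw [← hπ, hhab]; exact hab.symm
    · simp only [s, Perm.mul_apply, swap_apply_left]
      rw [swap_apply_of_ne_of_ne haE.symm hDE.symm]; exact haE.symm
    · intro y hy
      by_cases hyD : y = D
      · exact Or.inl (hfix y (hyD ▸ hD))
      by_cases hyE : y = E
      · exact Or.inl (hfix y (hyE ▸ hE))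
      right
      simp only [s, Perm.mul_apply]
      rw [swap_apply_of_ne_of_ne hy hyE, swap_apply_of_ne_of_ne hy hyD]
  have hcK : toPermHom G (G ⧸ M) h * s * (toPermHom G (G ⧸ M) h)⁻¹ * s⁻¹ ∈ K := by
    rw [mul_assoc, mul_assoc, ← mul_assoc s]
    exact K.mul_mem hhK (hK s hs1 hsz _ (K.inv_mem hhK))
  have hKfix : ∀ c ∈ K, c (π z) = π z := by
    rintro _ ⟨u, hu, rfl⟩
    change u • π z = π z
    rw [← hπ, (mem_fixingSubgroup_iff G).1 hu z rfl]
  have hAt := hqp ((alternatingGroup (G ⧸ M)).comap (toPermHom G (G ⧸ M))) inferInstance (by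
    obtain ⟨u, -, hu⟩ := hcK
    intro e
    have : u ∈ (alternatingGroup (G ⧸ M)).comap (toPermHom G (G ⧸ M)) := by
      rw [Subgroup.mem_comap, hu]; exact h3.mem_alternatingGroup
    rw [e, Subgroup.mem_bot] at this
    rw [this, map_one] at hu
    exact h3.ne_one hu.symm)
  refine injective_of_fibre hπ (a := z) fun y hy => ?_
  obtain ⟨g, hg⟩ := hAt.exists_smul_eq z y
  have hg' : g.1 • z = y := hg
  obtain ⟨u, hu, hug⟩ := mem_of_conj_of_fix K (π z) hK hcK h3 (hKfix _ hcK)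
    (τ := toPermHom G (G ⧸ M) g.1) (mem_alternatingGroup.1 g.2) (by
      change g.1 • π z = π z
      rw [← hπ, hg', hy])
  have : u⁻¹ * g.1 = 1 := by
    apply eq_one_of_quasi hqp hπ hs
    intro w
    rw [mul_smul, inv_smul_eq_iff]
    exact (congrArg (fun σ : Perm (G ⧸ M) => σ w) hug).symm
  rw [← hg', ← inv_mul_eq_one.1 this]
  exact (mem_fixingSubgroup_iff G).1 hu z rfl

end CfsgLib.Perm2
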